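import Cfsg.Agent.SP.NegS.Gen

/-! # S5755, row `Th`, socle `³D₄(2)`: the action on an elementary abelian group of order 49 (helper26) -/

set_option autoImplicit false
set_option linter.style.haveILetI false

namespace Cfsg.Agent.SP.NTh.D4

open Subgroup Cfsg.Agent.SP

/-- An element normalising an abelian subgroup `V` and acting on it with order `p`. -/
theorem card_dvd_of_act {G : Type*} [Group G] [Finite G] {V : Subgroup G}
    (hab : V ≤ centralizer (V : Set G)) {x : G} (hx : x ∈ normalizer (V : Set G)) {p : ℕ} (hp : p.Prime)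
    (h7 : x ^ p ∈ centralizer (V : Set G)) (hn : x ∉ centralizer (V : Set G)) :
    Nat.card V * p ∣ Nat.card G := by
  haveI := Fact.mk hp
  let f := normalizerMonoidHom V
  have hk : f.ker = (centralizer (V : Set G)).subgroupOf (normalizer (V : Set G)) := normalizerMonoidHom_ker V
  have h1 : orderOf (f ⟨x, hx⟩) = p := by
    refine orderOf_eq_prime ?_ ?_
    · rw [← map_pow, ← MonoidHom.mem_ker, hk, mem_subgroupOf]
      exact h7
    · intro h
      rw [← MonoidHom.mem_ker, hk, mem_subgroupOf] at h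
      exact hn h
  have h2 : p ∣ f.ker.index := by
    rw [index_ker, ← h1]
    exact Subgroup.orderOf_dvd_natCard f.range (MonoidHom.mem_range.2 ⟨⟨x, hx⟩, rfl⟩)
  have h3 : Nat.card V ∣ Nat.card f.ker := by
    rw [hk, Nat.card_congr (subgroupOfEquivOfLe (centralizer_le_normalizer _)).toEquiv]
    exact card_dvd_of_le hab
  refine (Nat.mul_dvd_mul h3 h2).trans ?_
  rw [card_mul_index]
  exact card_subgroup_dvd_card _

/-- Sylow conjugacy in ambient form. -/
theorem sylow_conj {T : Type*} [Group T] [Finite T] {S P P' : Subgroup T} {p k : ℕ} (hp : p.Prime) (hPS : P ≤ S)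
    (hPS' : P' ≤ S) (hP : Nat.card P = p ^ k) (hP' : Nat.card P' = p ^ k) (hk : ¬ p ^ (k + 1) ∣ Nat.card S) :
    ∃ s ∈ S, ∀ x ∈ P', s * x * s⁻¹ ∈ P := by
  haveI := Fact.mk hp
  obtain ⟨Q, hQ⟩ := NegS.exists_sylow hPS hP hk
  obtain ⟨Q', hQ'⟩ := NegS.exists_sylow hPS' hP' hk
  obtain ⟨s, hs⟩ := MulAction.exists_smul_eq S Q' Q
  refine ⟨s, s.2, fun x hx => ?_⟩
  have h1 : (⟨x, hPS' hx⟩ : S) ∈ Q' := by
    rw [← SetLike.mem_coe, ← Q'.coe_coe, hQ']
    exact hx
  have h2 : s * ⟨x, hPS' hx⟩ * s⁻¹ ∈ s • Q' := by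
    rw [Sylow.smul_def, ← SetLike.mem_coe, ← Sylow.coe_coe, Sylow.pointwise_smul_def]
    exact smul_mem_pointwise_smul _ _ _ h1
  rw [hs, ← SetLike.mem_coe, ← Q.coe_coe, hQ] at h2
  exact h2

/-- coordinates -/
abbrev V2 : Type := ZMod 7 × ZMod 7

/-- the linear map with `(1, 0) ↦ p`, `(0, 1) ↦ q` -/
def lin (p q u : V2) : V2 := (u.1 * p.1 + u.2 * q.1, u.1 * p.2 + u.2 * q.2)

variable {G : Type*} [Group G]

/-- `s ^ i * σ ^ j` -/
def E (s σ : G) (u : V2) : G := s ^ u.1.val * σ ^ u.2.val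

/-- two commuting elements of exponent 7 -/
structure Sev (s σ : G) : Prop where
  s7 : s ^ 7 = 1
  t7 : σ ^ 7 = 1
  com : Commute s σ

theorem pow_val_add {s : G} (hs : s ^ 7 = 1) (a b : ZMod 7) : s ^ (a + b).val = s ^ a.val * s ^ b.val := by
  rw [← pow_add, ZMod.val_add, ← pow_eq_pow_mod _ hs]

theorem E_one (s σ : G) : E s σ (1, 0) = s := by
  have h1 : (1 : ZMod 7).val = 1 := rfl
  simp only [E, h1, ZMod.val_zero, pow_one, pow_zero, mul_one]

theorem E_two (s σ : G) : E s σ (0, 1) = σ := by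
  have h1 : (1 : ZMod 7).val = 1 := rfl
  simp only [E, h1, ZMod.val_zero, pow_one, pow_zero, one_mul]

theorem Sev.add {s σ : G} (h : Sev s σ) (u v : V2) : E s σ (u + v) = E s σ u * E s σ v := by
  have hc : Commute (σ ^ u.2.val) (s ^ v.1.val) := h.com.symm.pow_pow _ _
  unfold E
  rw [Prod.fst_add, Prod.snd_add, pow_val_add h.s7, pow_val_add h.t7, mul_assoc, mul_assoc,
    ← mul_assoc (σ ^ u.2.val), hc.eq, mul_assoc]

/-- the homomorphism -/
def Sev.hom {s σ : G} (h : Sev s σ) : Multiplicative V2 →* G :=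
  MonoidHom.mk' (fun u => E s σ u.toAdd) fun _ _ => h.add _ _

theorem Sev.pow {s σ : G} (h : Sev s σ) (u : V2) (n : ℕ) : E s σ u ^ n = E s σ (n • u) := by
  have := map_pow h.hom (Multiplicative.ofAdd u) n
  exact this.symm

theorem Sev.map {s σ : G} (h : Sev s σ) {H : Type*} [Group H] {s' σ' : H} (f : H →* G) {p q : V2}
    (hp : f s' = E s σ p) (hq : f σ' = E s σ q) (u : V2) : f (E s' σ' u) = E s σ (lin p q u) := by
  have h1 : lin p q u = u.1.val • p + u.2.val • q := by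
    unfold lin
    ext
    · rw [Prod.fst_add, Prod.smul_fst, Prod.smul_fst, nsmul_eq_mul, nsmul_eq_mul, ZMod.natCast_zmod_val,
        ZMod.natCast_zmod_val]
    · rw [Prod.snd_add, Prod.smul_snd, Prod.smul_snd, nsmul_eq_mul, nsmul_eq_mul, ZMod.natCast_zmod_val,
        ZMod.natCast_zmod_val]
  rw [h1, h.add, ← h.pow, ← h.pow, ← hp, ← hq, ← map_pow, ← map_pow, ← map_mul]
  rfl

/-- `x` acts on the coordinates by `M` -/
def Act (s σ x : G) (M : V2 → V2) : Prop := ∀ u, x * E s σ u * x⁻¹ = E s σ (M u)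

theorem Sev.act {s σ : G} (h : Sev s σ) {x : G} {p q : V2} (hp : x * s * x⁻¹ = E s σ p)
    (hq : x * σ * x⁻¹ = E s σ q) : Act s σ x (lin p q) :=
  fun u => h.map (MulAut.conj x).toMonoidHom hp hq u

theorem Act.mul {s σ x y : G} {M N : V2 → V2} (hx : Act s σ x M) (hy : Act s σ y N) :
    Act s σ (x * y) (M ∘ N) := fun u => by
  rw [Function.comp_apply, ← hx, ← hy]
  group

theorem Act.pow {s σ x : G} {M : V2 → V2} (hx : Act s σ x M) (n : ℕ) : Act s σ (x ^ n) (M^[n]) := by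
  induction n with
  | zero => intro u; simp
  | succ n ih =>
    rw [pow_succ, Function.iterate_succ]
    exact ih.mul hx

theorem Act.inv {s σ x : G} {M M' : V2 → V2} (hx : Act s σ x M) (h : ∀ u, M (M' u) = u) :
    Act s σ x⁻¹ M' := fun u => by
  have := hx (M' u)
  rw [h] at this
  rw [← this]
  group

/-- transport along a homomorphism -/
theorem Act.map {s σ : G} (h : Sev s σ) {H : Type*} [Group H] {s' σ' x : H} (f : H →* G) {p q : V2}
    (hp : f s' = E s σ p) (hq : f σ' = E s σ q) {M T' : V2 → V2} (hx : Act s' σ' x M)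
    (hT : ∀ u, lin p q (T' u) = u) : Act s σ (f x) (lin p q ∘ M ∘ T') := fun u => by
  have h1 := congrArg f (hx (T' u))
  rw [map_mul, map_mul, map_inv, h.map f hp hq, h.map f hp hq, hT] at h1
  exact h1

/-- `U ^ 6` has order 7 -/
def Bad (U : V2 → V2) : Prop :=
  (U^[42] (1, 0) = (1, 0) ∧ U^[42] (0, 1) = (0, 1)) ∧ ¬ (U^[6] (1, 0) = (1, 0) ∧ U^[6] (0, 1) = (0, 1))

theorem Act.not_bad [Finite G] {s σ x : G} (h : Sev s σ) (hi : Function.Injective (E s σ))
    (hG : ¬ 343 ∣ Nat.card G) {U : V2 → V2} (hx : Act s σ x U) : ¬ Bad U := by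
  rintro ⟨⟨h1, h2⟩, h3⟩
  have hcV : Nat.card h.hom.range = 49 := by
    rw [← Nat.card_congr (MonoidHom.ofInjective (f := h.hom) fun a b hab => hi hab).toEquiv]
    simp [V2]
  have hcen : ∀ y : G, Commute s y → Commute σ y → y ∈ centralizer (h.hom.range : Set G) := by
    rintro y a b _ ⟨u, rfl⟩
    exact ((a.pow_left _).mul_left (b.pow_left _)).eq
  have hfix : ∀ (y : G) (M : V2 → V2) (u : V2), Act s σ y M → M u = u → Commute (E s σ u) y := by
    intro y M u hy hu
    have := hy u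
    rw [hu, mul_inv_eq_iff_eq_mul] at this
    exact this.symm
  apply hG
  have := card_dvd_of_act (V := h.hom.range) (x := x ^ 6) (p := 7) ?_ ?_ (by norm_num) ?_ ?_
  · rwa [hcV] at this
  · rintro _ ⟨u, rfl⟩
    exact hcen _ (((Commute.refl s).pow_right _).mul_right (h.com.pow_right _))
      ((h.com.symm.pow_right _).mul_right ((Commute.refl σ).pow_right _))
  · refine mem_normalizer_fintype ?_
    rintro _ ⟨u, rfl⟩
    exact ⟨Multiplicative.ofAdd (U^[6] u.toAdd), ((hx.pow 6) u.toAdd).symm⟩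
  · rw [← pow_mul]
    refine hcen _ ?_ ?_
    · have := hfix _ _ _ (hx.pow 42) h1
      rwa [E_one] at this
    · have := hfix _ _ _ (hx.pow 42) h2
      rwa [E_two] at this
  · intro hc
    apply h3
    have key : ∀ u, U^[6] u = u := by
      intro u
      apply hi
      rw [← hx.pow 6 u, mul_inv_eq_iff_eq_mul]
      exact (hc (E s σ u) ⟨Multiplicative.ofAdd u, rfl⟩).symm
    exact ⟨key _, key _⟩

/-- the reflection -/
def mW : V2 → V2 := lin (1, 0) (0, 2)
/-- the element of order 4 -/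
def mN : V2 → V2 := lin (4, 1) (4, 3)
/-- its inverse -/
def mI : V2 → V2 := lin (3, 6) (3, 4)
/-- the inverse of the base change -/
def mT (j k : ZMod 7) : V2 → V2 := lin (1, 0) (-j * k ^ 5, k ^ 5)

theorem mN_mI : ∀ u, mN (mI u) = u := by decide +kernel

theorem lin_mT : ∀ j k : ZMod 7, k ≠ 0 → ∀ u, lin (1, 0) (j, k) (mT j k u) = u := by decide +kernel

theorem cases49 : ∀ j k : ZMod 7, k ≠ 0 →
    Bad (((lin (1, 0) (j, k) ∘ mW ∘ mT j k) ∘ mW) ∘ mW) ∨ ∃ b : Fin 3,
      Bad (((lin (1, 0) (j, k) ∘ mN ∘ mT j k) ∘ mW^[b]) ∘ mI) ∨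
        (((lin (1, 0) (j, k) ∘ mN ∘ mT j k) ∘ mW^[b]) ∘ mI) (1, 0) = (1, 0) := by
  unfold Bad
  decide +kernel

/-- **The abstract step.**  `f` fixes `s` and maps `σ` into `⟨s, σ⟩`: then `f n * w ^ b * n⁻¹` centralises `s`. -/
theorem exists_comm [Finite G] {s σ w n : G} (h : Sev s σ) (hi : Function.Injective (E s σ))
    (hG : ¬ 343 ∣ Nat.card G) (hw : Act s σ w mW) (hn : Act s σ n mN) {H : Type*} [Group H] {s' σ' w' n' : H}
    (hw' : Act s' σ' w' mW) (hn' : Act s' σ' n' mN) (f : H →* G) {j k : ZMod 7} (hk : k ≠ 0) (hs : f s' = s)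
    (hσ : f σ' = E s σ (j, k)) : ∃ b : ℕ, Commute s (f n' * w ^ b * n⁻¹) := by
  have hs' : f s' = E s σ (1, 0) := by rw [hs, E_one]
  have a1 := Act.map h f hs' hσ hw' (lin_mT j k hk)
  have a2 := Act.map h f hs' hσ hn' (lin_mT j k hk)
  rcases cases49 j k hk with hb | ⟨b, hb | hb⟩
  · exact absurd hb (((a1.mul hw).mul hw).not_bad h hi hG)
  · exact absurd hb (((a2.mul (hw.pow b)).mul (hn.inv mN_mI)).not_bad h hi hG)
  · refine ⟨b, ?_⟩
    have := ((a2.mul (hw.pow b)).mul (hn.inv mN_mI)) (1, 0)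
    rw [hb, E_one, mul_inv_eq_iff_eq_mul] at this
    exact this.symm

end Cfsg.Agent.SP.NTh.D4
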